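import Cfsg.Agent.H72.G2G.Fix2
import Cfsg.Agent.H522.FldSixLib

/-!
# S3509, `G₂(3^n)`, `n` odd: constant words (helper72)

* `cw k w` : the element of `G₂(k)` with the word `w` with coefficients in `ℤ`; `cw_eq`, `cw_pow_odd`, `cw_phi`, `emb_cw`;
* `u0`, `n0` : a regular unipotent element and a representative of `-1`, fixed by `Γ ^ n`; `eq_one_of_u0_n0`.
-/

set_option autoImplicit false
set_option linter.unusedSectionVars false

namespace Cfsg.Agent.H72.G2G

open Subgroup Cfsg Cfsg.Lie Cfsg.Lie.ChevalleyDatum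
open Cfsg.Agent.ChevalleyStructure Cfsg.Agent.ChevalleyStructure.Elts
open Cfsg.Agent.ChevalleyStructure.WordCheck
open Cfsg.Agent.H689.Ccp (hD X fl la X_neg ext_aut fl_tab)
open Cfsg.Agent.H70.ChevFix (xe)
open Cfsg.Agent.GpExc.Field (glMap emb coe_emb glMap_xG emb_injective coe_glMap)
open Cfsg.Agent.BpExc.FamUntw Cfsg.Agent.BpExc.FamField Cfsg.Agent.BpExc.TowChev

universe u

section cwd

variable (k : Type u) [Field k]

/-- the element with the constant word `w` -/
def cw (w : List (ℕ × ℤ)) : ↥(chevG2.group k) := (w.map fun p => xe hD p.1 ((p.2 : ℤ) : k)).prod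

theorem cw_nil : cw k [] = 1 := rfl

theorem cw_cons (p : ℕ × ℤ) (w : List (ℕ × ℤ)) : cw k (p :: w) = xe hD p.1 ((p.2 : ℤ) : k) * cw k w := by
  unfold cw
  rw [List.map_cons, List.prod_cons]

theorem cw_append (w v : List (ℕ × ℤ)) : cw k (w ++ v) = cw k w * cw k v := by
  unfold cw
  rw [List.map_append, List.prod_append]

theorem coe_cw (w : List (ℕ × ℤ)) : ((cw k w : ↥(chevG2.group k)) : GL chevG2.Idx k) =
    wordG hD (w.map fun p => (p.1, ((p.2 : ℤ) : k))) := by
  induction w with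
  | nil => rfl
  | cons p w ih =>
    rw [cw_cons, Subgroup.coe_mul, ih, List.map_cons, wordG_cons]
    rfl

/-- the words as symbolic words -/
def cc (w : List (ℕ × ℤ)) : List (ℕ × PExpr) := w.map fun p => (p.1, PExpr.const p.2)

/-- the check -/
def ck (w w' : List (ℕ × ℤ)) : Bool := check chevG2 3 0 0 (xw (cc w)) (xw (cc w'))

theorem wval_cc (w : List (ℕ × ℤ)) : wval (fun _ => (0 : k)) (cc w) = w.map fun p => (p.1, ((p.2 : ℤ) : k)) := by
  unfold wval cc
  rw [List.map_map]
  rfl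

theorem cw_eq [CharP k 3] {w w' : List (ℕ × ℤ)} (h : ck w w' = true) : cw k w = cw k w' := by
  have h3 : ((3 : ℕ) : k) = 0 := CharP.cast_eq_zero k 3
  apply Subtype.ext
  apply Units.ext
  rw [coe_cw, coe_cw, coe_wordG, coe_wordG, ← wval_cc, ← wval_cc]
  exact wordMat_eq_of_check chevG2 (fun _ => (0 : k)) 3 0 0 (cc w) (cc w') h h3
    (fun i hi => absurd hi (Nat.not_lt_zero _))

/-- small coefficients -/
def Sm (w : List (ℕ × ℤ)) : Prop := ∀ p ∈ w, p.1 < 12 ∧ (p.2 = 0 ∨ p.2 = 1 ∨ p.2 = -1)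

instance (w : List (ℕ × ℤ)) : Decidable (Sm w) := by unfold Sm; infer_instance

theorem pow_odd_eq {z : ℤ} (hz : z = 0 ∨ z = 1 ∨ z = -1) {e : ℕ} (he : Odd e) : ((z : ℤ) : k) ^ e = ((z : ℤ) : k) := by
  rcases hz with rfl | rfl | rfl
  · rw [Int.cast_zero, zero_pow]
    rintro rfl
    exact (Nat.not_odd_zero he).elim
  · rw [Int.cast_one, one_pow]
  · rw [Int.cast_neg, Int.cast_one, he.neg_one_pow]

variable {k}

theorem la_odd {r : ℕ} (hr : r < 12) : Odd (la r) := by
  have h : ∀ r < 12, Odd (la r) := by decide +kernel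
  exact h r hr

/-- the reflected word -/
def fw (w : List (ℕ × ℤ)) : List (ℕ × ℤ) := w.map fun p => (fl p.1, p.2)

theorem aut_cw {m : ℕ} {β : MulAut ↥(chevG2.group k)}
    (hβ : ∀ r < 12, ∀ t : k, β (xe hD r t) = xe hD (fl r) (t ^ (la r * 3 ^ m))) {w : List (ℕ × ℤ)} (hw : Sm w) :
    β (cw k w) = cw k (fw w) := by
  induction w with
  | nil => exact map_one β
  | cons p w ih =>
    have hp := hw p List.mem_cons_self
    have h3 : Odd (3 ^ m) := Odd.pow (by decide)
    rw [cw_cons, map_mul, ih fun q hq => hw q (List.mem_cons_of_mem _ hq), hβ _ hp.1,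
      pow_odd_eq k hp.2 ((la_odd hp.1).mul h3)]
    exact (cw_cons k (fl p.1, p.2) (fw w)).symm

theorem cw_pow_odd [CharP k 3] [PerfectRing k 3] {Γ : MulAut ↥(chevG2.group k)} (h : Spec Γ) (m : ℕ)
    {w : List (ℕ × ℤ)} (hw : Sm w) : (Γ ^ (2 * m + 1)) (cw k w) = cw k (fw w) :=
  aut_cw (fun _ hr t => h.pow_odd m hr t) hw

theorem cw_phi [CharP k 3] [PerfectRing k 3] (m : ℕ) {w : List (ℕ × ℤ)} (hw : Sm w) :
    phi chevG2 k 3 m (cw k w) = cw k w := by
  induction w with
  | nil => exact map_one _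
  | cons p w ih =>
    have hp := hw p List.mem_cons_self
    have h3 : Odd (3 ^ m) := Odd.pow (by decide)
    rw [cw_cons, map_mul, ih fun q hq => hw q (List.mem_cons_of_mem _ hq), phi_xe, pow_odd_eq k hp.2 h3]

theorem emb_xe {F : Type u} [Field F] (f : F →+* k) (r : ℕ) (t : F) :
    emb hD f (xe hD r t) = xe hD r (f t) := by
  apply Subtype.ext
  rw [coe_emb]
  exact glMap_xG hD f r t

theorem emb_cw {F : Type u} [Field F] (f : F →+* k) (w : List (ℕ × ℤ)) :
    emb hD f (cw F w) = cw k w := by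
  induction w with
  | nil => exact map_one _
  | cons p w ih => rw [cw_cons, cw_cons, map_mul, ih, emb_xe, map_intCast]

end cwd

/-! ### the elements -/

/-- a regular unipotent element -/
def u0 : List (ℕ × ℤ) := [(7, 1), (6, 1), (8, 1), (9, 1)]
/-- a representative of the longest element -/
def n0 : List (ℕ × ℤ) := [(7, 1), (4, -1), (7, 1), (6, 1), (5, -1), (6, 1), (7, 1), (4, -1), (7, 1), (6, 1), (5, -1), (6, 1),
  (7, 1), (4, -1), (7, 1), (6, 1), (5, -1), (6, 1)]
def h0 : List (ℕ × ℤ) := [(8, 1), (10, 1)]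
def z0 : List (ℕ × ℤ) := [(9, 1), (11, 1)]

theorem sm_u0 : Sm u0 := by decide
theorem sm_n0 : Sm n0 := by decide
theorem sm_h0 : Sm h0 := by decide
theorem sm_z0 : Sm z0 := by decide

set_option maxRecDepth 100000 in
theorem ck_u0 : ck (fw u0) u0 = true := by decide +kernel
set_option maxRecDepth 100000 in
theorem ck_n0 : ck (fw n0) n0 = true := by decide +kernel
set_option maxRecDepth 100000 in
theorem ck_h0 : ck (fw h0) h0 = true := by decide +kernel
set_option maxRecDepth 100000 in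
theorem ck_z0 : ck (fw z0) z0 = true := by decide +kernel
set_option maxRecDepth 100000 in
theorem ck_u0a : ck u0 [(6, 1), (10, 1), (11, 1), (7, 1)] = true := by decide +kernel
set_option maxRecDepth 100000 in
theorem ck_u0b : ck u0 [(7, 1), (8, 1), (9, 1), (6, 1)] = true := by decide +kernel
set_option maxRecDepth 100000 in
theorem ck_comm : ck (u0 ++ h0) (z0 ++ (h0 ++ u0)) = true := by decide +kernel
set_option maxRecDepth 100000 in
theorem ck_fin : ck ([(6, 1), (7, -1)] ++ [(8, -1), (10, 1)]) (z0 ++ ([(8, -1), (10, 1)] ++ [(6, 1), (7, -1)])) = true := by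
  decide +kernel
set_option maxRecDepth 100000 in
theorem ck_a : ck ([(7, 1)] ++ z0) (z0 ++ [(7, 1)]) = true := by decide +kernel
set_option maxRecDepth 100000 in
theorem ck_b : ck ([(8, -1), (10, 1)] ++ z0) (z0 ++ [(8, -1), (10, 1)]) = true := by decide +kernel

end Cfsg.Agent.H72.G2G
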