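import Cfsg.Agent.H689.Ccp.GBase
import Cfsg.Agent.H469.Exc.Model
import Cfsg.Agent.H378.TorChar

/-!
# S3509, `G₂(3^n)`: the graph automorphism over an algebraically closed field (helper72)

* `Spec Γ` : `Γ` is the graph automorphism `x_r(t) ↦ x_{r̄}(t ^ λ_r)`;
* `exists_spec`, `Spec.sq`, `Spec.uniq`, `Spec.pow_even`, `Spec.pow_odd`.
-/

set_option autoImplicit false
set_option linter.unusedSectionVars false

namespace Cfsg.Agent.H72.G2G

open Subgroup Cfsg Cfsg.Lie Cfsg.Lie.ChevalleyDatum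
open Cfsg.Agent.ChevalleyStructure Cfsg.Agent.ChevalleyStructure.Elts
open Cfsg.Agent.H689.Ccp (hD X fl la X_neg ext_aut fl_tab)
open Cfsg.Agent.H70.ChevFix (xe)
open Cfsg.Agent.GpExc.Field (glMap emb coe_emb glMap_xG emb_injective coe_glMap)
open Cfsg.Agent.BpExc.FamTw.Gr (coe_fld)
open Cfsg.Agent.BpExc.FamUntw Cfsg.Agent.BpExc.FamField Cfsg.Agent.BpExc.TowChev
open Cfsg.Agent.H469.Exc

universe u

section spec

variable {k : Type u} [Field k]

/-- the graph automorphism -/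
def Spec (Γ : MulAut ↥(chevG2.group k)) : Prop :=
  ∀ r < 12, ∀ t : k, Γ (xe hD r t) = xe hD (fl r) (t ^ la r)

theorem perf [CharP k 3] [PerfectRing k 3] (x : k) : ∃ y : k, y ^ 3 = x := by
  obtain ⟨y, hy⟩ := (PerfectRing.bijective_frobenius (R := k) (p := 3)).2 x
  exact ⟨y, hy⟩

theorem exists_spec (k : Type u) [Field k] [CharP k 3] [PerfectRing k 3] :
    ∃ Γ : MulAut ↥(chevG2.group k), Spec Γ := by
  obtain ⟨α, hα⟩ := GraphG2.exists_graph (K := k) perf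
  refine ⟨α, fun r hr t => ?_⟩
  apply Subtype.ext
  apply Units.ext
  exact hα (xe hD r t) r t hr rfl

theorem Spec.uniq {Γ Γ' : MulAut ↥(chevG2.group k)} (h : Spec Γ) (h' : Spec Γ') : Γ = Γ' := by
  apply ext_aut <;> intro t <;> rw [h _ (by norm_num), h' _ (by norm_num)]

theorem phi_xe [CharP k 3] [PerfectRing k 3] (m r : ℕ) (t : k) :
    phi chevG2 k 3 m (xe hD r t) = xe hD r (t ^ 3 ^ m) := by
  apply Subtype.ext
  show glMap chevG2 ((frb k 3 m : k ≃+* k) : k →+* k) (xG hD r t) = xG hD r (t ^ 3 ^ m)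
  rw [glMap_xG]
  congr 1
  exact frb_apply k 3 m t

theorem Spec.sq [CharP k 3] [PerfectRing k 3] {Γ : MulAut ↥(chevG2.group k)} (h : Spec Γ) :
    Γ ^ 2 = phi chevG2 k 3 1 := by
  have key : ∀ r < 12, ∀ t : k, (Γ ^ 2) (xe hD r t) = phi chevG2 k 3 1 (xe hD r t) := by
    intro r hr t
    rw [pow_two, MulAut.mul_apply, h r hr, h (fl r) (fl_tab r hr).1, phi_xe, (fl_tab r hr).2.1, ← pow_mul,
      (fl_tab r hr).2.2.1, pow_one]
  apply ext_aut <;> intro t <;> exact key _ (by norm_num) t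

theorem Spec.pow_even [CharP k 3] [PerfectRing k 3] {Γ : MulAut ↥(chevG2.group k)} (h : Spec Γ) (m : ℕ) :
    Γ ^ (2 * m) = phi chevG2 k 3 m := by
  rw [pow_mul, h.sq, phi_pow, one_mul]

theorem Spec.pow_two_mul [CharP k 3] [PerfectRing k 3] {Γ : MulAut ↥(chevG2.group k)} (h : Spec Γ) (m : ℕ) :
    (Γ ^ m) ^ 2 = phi chevG2 k 3 m := by
  rw [← pow_mul, mul_comm, h.pow_even]

theorem Spec.pow_odd [CharP k 3] [PerfectRing k 3] {Γ : MulAut ↥(chevG2.group k)} (h : Spec Γ) (m : ℕ) {r : ℕ}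
    (hr : r < 12) (t : k) : (Γ ^ (2 * m + 1)) (xe hD r t) = xe hD (fl r) (t ^ (la r * 3 ^ m)) := by
  rw [pow_succ, MulAut.mul_apply, h r hr, h.pow_even, phi_xe, ← pow_mul]

end spec

end Cfsg.Agent.H72.G2G
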