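import Cfsg.Agent.H72.G2G.Fix
import Cfsg.Agent.H72.G2G.Spec
import Cfsg.Agent.ChevalleyStructure.ReeFixed

/-!
# S3509, `G₂(3^n)`, `n` odd: `²G₂(q)` is fixed by the graph-field automorphism (helper72)

* `le_fix` : elements of `²G₂(q)` are fixed; `fix_iff`; `tw_le`.
-/

set_option autoImplicit false
set_option linter.unusedSectionVars false

namespace Cfsg.Agent.H72.G2G

open Cfsg.Lie Cfsg.Agent.ChevalleyStructure Cfsg.Agent.ChevalleyStructure.Elts
open Cfsg.Agent.ChevalleyStructure.WordCheck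
open Cfsg.Agent.ChevalleyStructure.ReeFixed (rbar lam wU1 wU2 wV1 wV2 checkU checkV IsTheta exists_theta reeWordU_bar
  reeWordV_bar)
open Cfsg.Agent.H689.Ccp (hD X fl la X_neg)
open Cfsg.Agent.H70.ChevFix (xe)

variable {K : Type} [Field K] {m : ℕ}

theorem wordG_mem (w : List (ℕ × K)) : wordG hD w ∈ chevG2.group K := by
  induction w with
  | nil => rw [wordG_nil]; exact one_mem _
  | cons p w ih => rw [wordG_cons]; exact mul_mem (xG_mem_group hD _ _) ih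

theorem aut_word {β : MulAut ↥(chevG2.group K)}
    (hβ : ∀ r < 12, ∀ t : K, β (X r t) = X (fl r) (t ^ (la r * 3 ^ m))) :
    ∀ w : List (ℕ × K), (∀ p ∈ w, p.1 < 12) →
      β ⟨wordG hD w, wordG_mem w⟩ =
        ⟨wordG hD (w.map fun p => (fl p.1, p.2 ^ (la p.1 * 3 ^ m))), wordG_mem _⟩ := by
  intro w
  induction w with
  | nil =>
    intro _
    have e : (⟨wordG hD [], wordG_mem []⟩ : ↥(chevG2.group K)) = 1 := rfl
    rw [e, map_one]
    rfl
  | cons p w ih =>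
    intro hw
    have e : (⟨wordG hD (p :: w), wordG_mem _⟩ : ↥(chevG2.group K)) = X p.1 p.2 * ⟨wordG hD w, wordG_mem w⟩ :=
      Subtype.ext (wordG_cons hD p w)
    rw [e, map_mul, ih fun q hq => hw q (List.mem_cons_of_mem _ hq), hβ _ (hw p List.mem_cons_self)]
    refine Subtype.ext ?_
    show (X (fl p.1) (p.2 ^ (la p.1 * 3 ^ m)) : ↥(chevG2.group K)).1 *
      wordG hD (w.map fun p => (fl p.1, p.2 ^ (la p.1 * 3 ^ m))) = _
    exact (wordG_cons hD (fl p.1, p.2 ^ (la p.1 * 3 ^ m)) _).symm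

/-- a word with the same matrix as its image is fixed -/
theorem word_fix {β : MulAut ↥(chevG2.group K)}
    (hβ : ∀ r < 12, ∀ t : K, β (X r t) = X (fl r) (t ^ (la r * 3 ^ m))) {θ : K →+* K} (hθ : IsTheta θ (3 ^ m))
    {w : List (ℕ × K)} (hw : ∀ p ∈ w, p.1 < 12)
    (h : chevG2.wordMat K (w.map fun p => (rbar p.1, θ (p.2) ^ lam p.1)) = chevG2.wordMat K w)
    {g : ↥(chevG2.group K)} (hg : ((g : GL chevG2.Idx K) : Matrix chevG2.Idx chevG2.Idx K) = chevG2.wordMat K w) :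
    β g = g := by
  have e : g = ⟨wordG hD w, wordG_mem w⟩ := Subtype.ext ((eq_wordG_iff hD _ w).2 hg)
  have e2 : (w.map fun p => (fl p.1, p.2 ^ (la p.1 * 3 ^ m))) = w.map fun p => (rbar p.1, θ (p.2) ^ lam p.1) := by
    apply List.map_congr_left
    intro p _
    rw [hθ.eq_pow, ← pow_mul, mul_comm (3 ^ m)]
    rfl
  rw [e, aut_word hβ w hw]
  apply Subtype.ext
  apply Units.ext
  rw [coe_wordG, coe_wordG, e2, h]

variable [Fintype K]

theorem gen_fix (hK : Fintype.card K = 3 ^ (2 * m + 1)) {β : MulAut ↥(chevG2.group K)}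
    (hβ : ∀ r < 12, ∀ t : K, β (X r t) = X (fl r) (t ^ (la r * 3 ^ m))) {w : List (ℕ × K)}
    (hw : w ∈ g2Words K (3 ^ m)) {g : ↥(chevG2.group K)}
    (hg : ((g : GL chevG2.Idx K) : Matrix chevG2.Idx chevG2.Idx K) = chevG2.wordMat K w) : β g = g := by
  obtain ⟨h3, θ, hθ⟩ := exists_theta hK
  obtain ⟨t, u, v, rfl | rfl⟩ := hw
  · refine word_fix hβ hθ (ReeFixed.fst_lt (l := [7, 6, 8, 9, 10, 11]) rfl (by decide)) ?_ hg
    rw [reeWordU_bar h3 hθ, ReeFixed.reeWordU_eq hθ]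
    exact (wordMat_eq_of_check chevG2 _ 3 0 6 wU1 wU2 checkU h3 (fun i hi => absurd hi (Nat.not_lt_zero _))).symm
  · refine word_fix hβ hθ (ReeFixed.fst_lt (l := [4, 5, 3, 2, 1, 0]) rfl (by decide)) ?_ hg
    rw [reeWordV_bar h3 hθ, ReeFixed.reeWordV_eq hθ]
    exact (wordMat_eq_of_check chevG2 _ 3 0 6 wV1 wV2 checkV h3 (fun i hi => absurd hi (Nat.not_lt_zero _))).symm

theorem word_lt {w : List (ℕ × K)} (hw : w ∈ g2Words K (3 ^ m)) : ∀ p ∈ w, p.1 < 12 := by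
  obtain ⟨t, u, v, rfl | rfl⟩ := hw
  · exact ReeFixed.fst_lt (l := [7, 6, 8, 9, 10, 11]) rfl (by decide)
  · exact ReeFixed.fst_lt (l := [4, 5, 3, 2, 1, 0]) rfl (by decide)

/-- **`²G₂(q)` is fixed** -/
theorem le_fix (hK : Fintype.card K = 3 ^ (2 * m + 1)) {β : MulAut ↥(chevG2.group K)}
    (hβ : ∀ r < 12, ∀ t : K, β (X r t) = X (fl r) (t ^ (la r * 3 ^ m))) {g : GL chevG2.Idx K}
    (hg : g ∈ twistedG2 K (3 ^ m)) : ∃ h : g ∈ chevG2.group K, β ⟨g, h⟩ = ⟨g, h⟩ := by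
  let S : Subgroup ↥(chevG2.group K) := MonoidHom.eqLocus β.toMonoidHom (MonoidHom.id _)
  have h1 : twistedG2 K (3 ^ m) ≤ S.map (chevG2.group K).subtype := by
    refine (Subgroup.closure_le _).2 ?_
    rintro x ⟨w, hw, hx⟩
    have hx' : x = wordG hD w := (eq_wordG_iff hD x w).2 hx
    have hm : x ∈ chevG2.group K := hx' ▸ wordG_mem w
    exact ⟨⟨x, hm⟩, gen_fix hK hβ hw hx, rfl⟩
  obtain ⟨y, hy, rfl⟩ := h1 hg
  exact ⟨y.2, hy⟩

omit [Fintype K] in
theorem tw_le : twistedG2 K (3 ^ m) ≤ chevG2.group K := by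
  refine (Subgroup.closure_le _).2 ?_
  rintro x ⟨w, _, hx⟩
  have hx' : x = wordG hD w := (eq_wordG_iff hD x w).2 hx
  exact hx' ▸ wordG_mem w

/-- **the fixed points are `²G₂(q)`** -/
theorem fix_iff (hK : Fintype.card K = 3 ^ (2 * m + 1)) {β : MulAut ↥(chevG2.group K)}
    (hβ : ∀ r < 12, ∀ t : K, β (X r t) = X (fl r) (t ^ (la r * 3 ^ m))) (g : ↥(chevG2.group K)) :
    β g = g ↔ (g : GL chevG2.Idx K) ∈ twistedG2 K (3 ^ m) := by
  constructor
  · exact fix_le hK hβ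
  · intro h
    obtain ⟨_, h2⟩ := le_fix hK hβ h
    exact h2

end Cfsg.Agent.H72.G2G
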